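import Cfsg.Agent.H326.CGU.Irr
import Mathlib.LinearAlgebra.Projection

/-!
# The centraliser of an isometry of linear type (helper326)

`F` a finite field, `τ : F →+* F` the identity or an involution, `B : V →ₛₗ[τ] V →ₗ[F] F` nondegenerate with
`B v u = ε τ (B u v)`; `w` an isometry of `B`, `p` irreducible, `p'` coprime to `p`, `(p p')(w) = 0`, the kernels of
`p(w)` and `p'(w)` totally isotropic.

* `isotropic_of_coprime`, `isotropic_of_coprime'` : the kernels are totally isotropic if `p' = reverse (p ^ τ)`;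
* `card_cent_linear` : the group of isometries which commute with `w` has order `|GL_m(|F| ^ k)|`, `k = deg p`,
  `dim V = 2 k m`.
-/

set_option autoImplicit false

namespace Cfsg.Agent.H326.CGU

open Module Polynomial

universe u v

section Iso

variable {F : Type u} {V : Type v} [Field F] [AddCommGroup V] [Module F V] {τ : F →+* F}
  {B : V →ₛₗ[τ] V →ₗ[F] F}

theorem aeval_reflect {W W' : Module.End F V} (h : W' * W = 1) (N : ℕ) (a : F[X]) (ha : a.natDegree ≤ N) :
    aeval W (reflect N a) = aeval W' a * W ^ N := by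
  have hpow : ∀ n : ℕ, W' ^ n * W ^ n = 1 := by
    intro n
    induction n with
    | zero => simp
    | succ n ih =>
      rw [pow_succ, pow_succ', mul_assoc, ← mul_assoc W' W, h, one_mul, ih]
  refine Polynomial.induction_with_natDegree_le
    (fun a => aeval W (reflect N a) = aeval W' a * W ^ N) N ?_ ?_ ?_ a ha
  · simp
  · intro n r _ hn
    show aeval W (reflect N (C r * X ^ n)) = aeval W' (C r * X ^ n) * W ^ N
    rw [reflect_C_mul_X_pow, revAt_le hn, map_mul, map_mul, aeval_C, aeval_C, map_pow, map_pow, aeval_X, aeval_X,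
      mul_assoc]
    congr 1
    have h1 : W ^ N = W ^ n * W ^ (N - n) := by rw [← pow_add, Nat.add_sub_cancel' hn]
    rw [h1, ← mul_assoc, hpow, one_mul]
  · intro f g _ _ hf hg
    show aeval W (reflect N (f + g)) = aeval W' (f + g) * W ^ N
    rw [reflect_add, map_add, map_add, add_mul, hf, hg]

/-- the dual polynomial -/
theorem aeval_dual {w : V ≃ₗ[F] V} (hw : ∀ u v, B (w u) (w v) = B u v) (p : F[X]) (u v : V) :
    B (aeval (w : V →ₗ[F] V) p u) (((w : V →ₗ[F] V) ^ (p.map τ).natDegree) v) =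
      B u (aeval (w : V →ₗ[F] V) (p.map τ).reverse v) := by
  have hW'W : ((w.symm : V →ₗ[F] V) : Module.End F V) * (w : V →ₗ[F] V) = 1 := by ext v; simp
  have hadj0 : ∀ u v, B ((w : V →ₗ[F] V) u) v = B u ((w.symm : V →ₗ[F] V) v) := by
    intro u v
    have h1 := hw u (w.symm v)
    rw [w.apply_symm_apply] at h1
    exact h1
  have h1 := aeval_reflect hW'W (p.map τ).natDegree (p.map τ) le_rfl
  have h2 : aeval (w.symm : V →ₗ[F] V) (p.map τ) =
      p.eval₂ ((algebraMap F (Module.End F V)).comp τ) (w.symm : V →ₗ[F] V) := by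
    rw [aeval_def, eval₂_map]
  rw [aeval_adj hadj0, reverse, h1, h2]
  rfl

theorem isotropic_of_coprime {w : V ≃ₗ[F] V} (hw : ∀ u v, B (w u) (w v) = B u v) {p : F[X]}
    (hc : IsCoprime p (p.map τ).reverse) (u v : V) (hu : aeval (w : V →ₗ[F] V) p u = 0)
    (hv : aeval (w : V →ₗ[F] V) p v = 0) : B u v = 0 := by
  obtain ⟨a, b, hab⟩ := hc
  have h1 : v = aeval (w : V →ₗ[F] V) (p.map τ).reverse (aeval (w : V →ₗ[F] V) b v) := by
    have h2 := congrArg (fun f => aeval (w : V →ₗ[F] V) f v) hab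
    simp only [map_add, map_one, LinearMap.add_apply, Module.End.one_apply] at h2
    rw [map_mul, Module.End.mul_apply, hv, map_zero, zero_add, mul_comm b, map_mul, Module.End.mul_apply] at h2
    exact h2.symm
  rw [h1, ← aeval_dual hw, hu, map_zero, LinearMap.zero_apply]

theorem isotropic_of_coprime' {w : V ≃ₗ[F] V} (hw : ∀ u v, B (w u) (w v) = B u v) {p : F[X]}
    (hc : IsCoprime p (p.map τ).reverse) (u v : V) (hu : aeval (w : V →ₗ[F] V) (p.map τ).reverse u = 0)
    (hv : aeval (w : V →ₗ[F] V) (p.map τ).reverse v = 0) : B u v = 0 := by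
  obtain ⟨a, b, hab⟩ := hc
  have h1 : u = aeval (w : V →ₗ[F] V) p (aeval (w : V →ₗ[F] V) a u) := by
    have h2 := congrArg (fun f => aeval (w : V →ₗ[F] V) f u) hab
    simp only [map_add, map_one, LinearMap.add_apply, Module.End.one_apply] at h2
    rw [mul_comm a, map_mul, Module.End.mul_apply, map_mul, Module.End.mul_apply, hu, map_zero, add_zero] at h2
    exact h2.symm
  -- `v = w ^ N v'`
  obtain ⟨v', hv'⟩ : ∃ v', ((w : V →ₗ[F] V) ^ (p.map τ).natDegree) v' = v := by
    have h3 : Function.Surjective ⇑(w : V →ₗ[F] V) := w.surjective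
    have h4 := (h3.iterate (p.map τ).natDegree) v
    rwa [← Module.End.coe_pow] at h4
  have h5 : aeval (w : V →ₗ[F] V) (p.map τ).reverse v' = 0 := by
    have h6 : Function.Injective ⇑(w : V →ₗ[F] V) := w.injective
    have h7 := h6.iterate (p.map τ).natDegree
    rw [← Module.End.coe_pow] at h7
    apply h7
    rw [map_zero, ← hv, ← hv']
    have h8 : Commute ((w : V →ₗ[F] V) ^ (p.map τ).natDegree) (aeval (w : V →ₗ[F] V) (p.map τ).reverse) := by
      have h9 : aeval (w : V →ₗ[F] V) (X ^ (p.map τ).natDegree : F[X]) =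
          (w : V →ₗ[F] V) ^ (p.map τ).natDegree := by rw [map_pow, aeval_X]
      rw [← h9]
      exact (Commute.all _ _).map (aeval (w : V →ₗ[F] V))
    exact LinearMap.congr_fun h8.eq v'
  rw [h1, ← hv', aeval_dual hw, h5, map_zero]

end Iso

section Restrict

variable {F : Type u} {V : Type v} [Field F] [AddCommGroup V] [Module F V]

theorem aeval_restrict {W : Module.End F V} {U : Submodule F V} (hU : ∀ v ∈ U, W v ∈ U) (a : F[X]) (v : U) :
    ((aeval (W.restrict hU) a v : U) : V) = aeval W a (v : V) := by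
  have hpow : ∀ (n : ℕ) (v : U), (((W.restrict hU) ^ n) v : V) = (W ^ n) (v : V) := by
    intro n
    induction n with
    | zero => intro v; simp
    | succ n ih =>
      intro v
      rw [pow_succ, Module.End.mul_apply, ih, pow_succ, Module.End.mul_apply]
      rfl
  induction a using Polynomial.induction_on' with
  | add p q hp hq => rw [map_add, map_add, LinearMap.add_apply, LinearMap.add_apply, Submodule.coe_add, hp, hq]
  | monomial n a =>
    rw [aeval_monomial, aeval_monomial, Module.End.mul_apply, Module.End.mul_apply, Module.algebraMap_end_apply,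
      Module.algebraMap_end_apply, Submodule.coe_smul, hpow]

end Restrict

section Main

variable {F : Type u} {V : Type v} [Field F] [Fintype F] [AddCommGroup V] [Module F V] [FiniteDimensional F V]
  {τ : F →+* F}

/-- **the centraliser of an isometry**, linear type, abstract form: `V = V₁ ⊕ V₂`, totally isotropic and invariant -/
theorem card_cent_pair (B : V →ₛₗ[τ] V →ₗ[F] F) {ε : F}
    (hs : ∀ u v, B v u = ε * τ (B u v)) (hnd : ∀ u, (∀ v, B u v = 0) → u = 0) (w : V ≃ₗ[F] V)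
    (hw : ∀ u v, B (w u) (w v) = B u v) {V₁ V₂ : Submodule F V} (hc : IsCompl V₁ V₂)
    (h1 : ∀ u ∈ V₁, ∀ v ∈ V₁, B u v = 0) (h2 : ∀ u ∈ V₂, ∀ v ∈ V₂, B u v = 0)
    (hw1 : ∀ v ∈ V₁, w v ∈ V₁) (hw2 : ∀ v ∈ V₂, w v ∈ V₂)
    (hg1 : ∀ g : V ≃ₗ[F] V, (∀ v, g (w v) = w (g v)) → ∀ v ∈ V₁, g v ∈ V₁)
    (hg2 : ∀ g : V ≃ₗ[F] V, (∀ v, g (w v) = w (g v)) → ∀ v ∈ V₂, g v ∈ V₂) :
    finrank F V = 2 * finrank F V₁ ∧
      Nat.card {g : V ≃ₗ[F] V // (∀ u v, B (g u) (g v) = B u v) ∧ ∀ v, g (w v) = w (g v)} =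
        Nat.card {A : V₁ ≃ₗ[F] V₁ // ∀ v, A ((w : V →ₗ[F] V).restrict hw1 v) = (w : V →ₗ[F] V).restrict hw1 (A v)} := by
  have : Finite V := Module.finite_of_finite F
  have hdec : ∀ x : V, ∃ y ∈ V₁, ∃ z ∈ V₂, x = y + z := by
    intro x
    have hx : x ∈ V₁ ⊔ V₂ := by rw [hc.sup_eq_top]; trivial
    obtain ⟨y, hy, z, hz, h⟩ := Submodule.mem_sup.1 hx
    exact ⟨y, hy, z, hz, h.symm⟩
  have nd1 : ∀ u ∈ V₁, (∀ v ∈ V₂, B u v = 0) → u = 0 := by
    intro u hu h
    apply hnd
    intro x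
    obtain ⟨y, hy, z, hz, rfl⟩ := hdec x
    rw [map_add, h1 u hu y hy, h z hz, add_zero]
  have nd2 : ∀ u ∈ V₂, (∀ v ∈ V₁, B u v = 0) → u = 0 := by
    intro u hu h
    apply hnd
    intro x
    obtain ⟨y, hy, z, hz, rfl⟩ := hdec x
    rw [map_add, h y hy, h2 u hu z hz, add_zero]
  let Ψ₁ : V₁ → (V₂ →ₗ[F] F) := fun u => (B u).comp V₂.subtype
  let Ψ₂ : V₂ → (V₁ →ₗ[F] F) := fun u => (B u).comp V₁.subtype
  have hΨ₁ : Function.Injective Ψ₁ := by
    intro u u' h
    apply Subtype.ext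
    rw [← sub_eq_zero]
    refine nd1 _ (V₁.sub_mem u.2 u'.2) fun v hv => ?_
    rw [map_sub, LinearMap.sub_apply, sub_eq_zero]
    exact LinearMap.congr_fun h ⟨v, hv⟩
  have hΨ₂ : Function.Injective Ψ₂ := by
    intro u u' h
    apply Subtype.ext
    rw [← sub_eq_zero]
    refine nd2 _ (V₂.sub_mem u.2 u'.2) fun v hv => ?_
    rw [map_sub, LinearMap.sub_apply, sub_eq_zero]
    exact LinearMap.congr_fun h ⟨v, hv⟩
  have hdual : ∀ U : Submodule F V, Finite (U →ₗ[F] F) ∧ Nat.card (U →ₗ[F] F) = Nat.card U := by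
    intro U
    have hf : Finite (U →ₗ[F] F) := Module.finite_of_finite F
    refine ⟨hf, ?_⟩
    rw [Module.natCard_eq_pow_finrank (K := F) (V := U →ₗ[F] F), Module.natCard_eq_pow_finrank (K := F) (V := U)]
    congr 1
    exact Subspace.dual_finrank_eq (K := F) (V := U)
  have hf1 := (hdual V₁).1
  have hf2 := (hdual V₂).1
  have hcard : Nat.card V₁ = Nat.card V₂ := by
    apply le_antisymm
    · rw [← (hdual V₂).2]; exact Nat.card_le_card_of_injective Ψ₁ hΨ₁
    · rw [← (hdual V₁).2]; exact Nat.card_le_card_of_injective Ψ₂ hΨ₂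
  have hsurj : Function.Surjective Ψ₂ :=
    (hΨ₂.bijective_of_nat_card_le (by rw [(hdual V₁).2, hcard])).2
  have hfr : finrank F V₁ = finrank F V₂ := by
    have h3 := hcard
    rw [Module.natCard_eq_pow_finrank (K := F) (V := V₁), Module.natCard_eq_pow_finrank (K := F) (V := V₂)] at h3
    refine Nat.pow_right_injective ?_ h3
    rw [Nat.card_eq_fintype_card]
    exact Fintype.one_lt_card
  refine ⟨?_, ?_⟩
  · rw [← Submodule.finrank_add_eq_of_isCompl hc, ← hfr]
    ring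
  -- restriction to `V₁`
  let R : (g : V ≃ₗ[F] V) → (∀ v, g (w v) = w (g v)) → (V₁ ≃ₗ[F] V₁) := fun g hg =>
    LinearEquiv.ofInjectiveEndo ((g : V →ₗ[F] V).restrict (hg1 g hg)) (by
      intro a b hab
      apply Subtype.ext
      exact g.injective (congrArg Subtype.val hab))
  have hR : ∀ g hg (v : V₁), ((R g hg v : V₁) : V) = g (v : V) := fun g hg v => rfl
  refine Nat.card_congr (Equiv.ofBijective (fun g => ⟨R g.1 g.2.2, fun v => Subtype.ext ?_⟩) ⟨?_, ?_⟩)
  · show g.1 (w (v : V)) = w (g.1 (v : V))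
    exact g.2.2 v
  · -- injectivity
    rintro ⟨g, hg, hgw⟩ ⟨g', hg', hgw'⟩ h
    apply Subtype.ext
    have h3 : ∀ u ∈ V₁, g u = g' u := by
      intro u hu
      have h4 := congrArg (fun A => ((A.1 ⟨u, hu⟩ : V₁) : V)) h
      exact h4
    have h5 : ∀ u ∈ V₂, g u = g' u := by
      intro u hu
      rw [← sub_eq_zero]
      refine nd2 _ (V₂.sub_mem (hg2 g hgw u hu) (hg2 g' hgw' u hu)) fun v hv => ?_
      obtain ⟨v', hv'⟩ := (R g hgw).surjective ⟨v, hv⟩
      have h6 : g (v' : V) = v := congrArg Subtype.val hv'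
      rw [map_sub, LinearMap.sub_apply, sub_eq_zero, ← h6, hg, h3 _ v'.2, hg']
    ext x
    obtain ⟨y, hy, z, hz, rfl⟩ := hdec x
    show g (y + z) = g' (y + z)
    rw [map_add, map_add, h3 y hy, h5 z hz]
  · -- surjectivity
    rintro ⟨A, hA⟩
    have hA' : ∀ v : V₁, ((A ((w : V →ₗ[F] V).restrict hw1 v) : V₁) : V) = w (A v : V₁) := fun v =>
      congrArg Subtype.val (hA v)
    have hex : ∀ v : V₂, ∃ v' : V₂, ∀ u : V₁, B (v' : V) (A u : V₁) = B (v : V) (u : V) := by
      intro v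
      obtain ⟨v', hv'⟩ := hsurj ((Ψ₂ v).comp (A.symm : V₁ →ₗ[F] V₁))
      refine ⟨v', fun u => ?_⟩
      have h3 := LinearMap.congr_fun hv' (A u)
      have h4 : ((Ψ₂ v).comp (A.symm : V₁ →ₗ[F] V₁)) (A u) = Ψ₂ v u := by
        show Ψ₂ v (A.symm (A u)) = Ψ₂ v u
        rw [A.symm_apply_apply]
      rw [h4] at h3
      exact h3
    choose A₂ hA₂ using hex
    have huniq : ∀ x y : V₂, (∀ u : V₁, B (x : V) (A u : V₁) = B (y : V) (A u : V₁)) → x = y := by
      intro x y h
      apply Subtype.ext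
      rw [← sub_eq_zero]
      refine nd2 _ (V₂.sub_mem x.2 y.2) fun v hv => ?_
      obtain ⟨u, hu⟩ := A.surjective ⟨v, hv⟩
      have h6 : ((A u : V₁) : V) = v := congrArg Subtype.val hu
      rw [map_sub, LinearMap.sub_apply, sub_eq_zero, ← h6, h]
    let A₂l : V₂ →ₗ[F] V₂ :=
      { toFun := A₂
        map_add' := fun x y => huniq _ _ fun u => by
          rw [hA₂, Submodule.coe_add, Submodule.coe_add, map_add, map_add, LinearMap.add_apply, LinearMap.add_apply,
            hA₂, hA₂]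
        map_smul' := fun c x => huniq _ _ fun u => by
          rw [hA₂, RingHom.id_apply, Submodule.coe_smul, Submodule.coe_smul, LinearMap.map_smulₛₗ₂,
            LinearMap.map_smulₛₗ₂, hA₂] }
    have hA₂i : Function.Injective A₂l := by
      rw [injective_iff_map_eq_zero]
      intro x hx
      apply Subtype.ext
      refine nd2 _ x.2 fun v hv => ?_
      have h3 := hA₂ x ⟨v, hv⟩
      have h4 : A₂ x = 0 := hx
      rw [h4] at h3
      rw [← h3, Submodule.coe_zero, map_zero, LinearMap.zero_apply]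
    let A₂e : V₂ ≃ₗ[F] V₂ := LinearEquiv.ofInjectiveEndo A₂l hA₂i
    have hA₂e : ∀ v, A₂e v = A₂ v := fun v => rfl
    let e := Submodule.prodEquivOfIsCompl V₁ V₂ hc
    let g : V ≃ₗ[F] V := (e.symm.trans (A.prodCongr A₂e)).trans e
    have hgx : ∀ (y : V₁) (z : V₂), g ((y : V) + z) = (A y : V₁) + (A₂ z : V₂) := by
      intro y z
      have h3 : e.symm ((y : V) + z) = (y, z) := by
        rw [LinearEquiv.symm_apply_eq]
        rfl
      show e ((A.prodCongr A₂e) (e.symm ((y : V) + z))) = _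
      rw [h3]
      rfl
    have hdec' : ∀ x : V, ∃ (y : V₁) (z : V₂), x = (y : V) + z := by
      intro x
      obtain ⟨y, hy, z, hz, rfl⟩ := hdec x
      exact ⟨⟨y, hy⟩, ⟨z, hz⟩, rfl⟩
    have hBB : ∀ (y : V₁) (z : V₂), B ((A y : V₁) : V) ((A₂ z : V₂) : V) = B (y : V) (z : V) := by
      intro y z
      rw [hs ((A₂ z : V₂) : V), hA₂, ← hs]
    have hgi : ∀ u v, B (g u) (g v) = B u v := by
      intro u v
      obtain ⟨y, z, rfl⟩ := hdec' u
      obtain ⟨y', z', rfl⟩ := hdec' v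
      rw [hgx, hgx]
      simp only [map_add, LinearMap.add_apply]
      rw [h1 _ (A y).2 _ (A y').2, h2 _ (A₂ z).2 _ (A₂ z').2, h1 _ y.2 _ y'.2, h2 _ z.2 _ z'.2, hBB, hA₂]
    have hA₂w : ∀ z : V₂, ((A₂ ⟨w z, hw2 _ z.2⟩ : V₂) : V) = w (A₂ z : V₂) := by
      intro z
      have h3 : A₂ ⟨w z, hw2 _ z.2⟩ = ⟨w (A₂ z : V₂), hw2 _ (A₂ z).2⟩ := by
        refine huniq _ _ fun u => ?_
        rw [hA₂]
        -- `u = w u'`
        obtain ⟨u', hu'⟩ := (LinearEquiv.ofInjectiveEndo ((w : V →ₗ[F] V).restrict hw1) (by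
          intro a b hab
          apply Subtype.ext
          exact w.injective (congrArg Subtype.val hab))).surjective u
        have hu'' : (w : V →ₗ[F] V).restrict hw1 u' = u := hu'
        rw [← hu'']
        show B (w (z : V)) (w (u' : V)) = B (w (A₂ z : V₂)) ((A ((w : V →ₗ[F] V).restrict hw1 u') : V₁) : V)
        rw [hA', hw, hw, hA₂]
      rw [h3]
    have hgw : ∀ v, g (w v) = w (g v) := by
      intro v
      obtain ⟨y, z, rfl⟩ := hdec' v
      have h3 : w ((y : V) + z) = (((w : V →ₗ[F] V).restrict hw1 y : V₁) : V) + ((⟨w z, hw2 _ z.2⟩ : V₂) : V) := by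
        rw [map_add]; rfl
      rw [h3, hgx, hgx, map_add, hA', hA₂w]
    refine ⟨⟨g, hgi, hgw⟩, Subtype.ext ?_⟩
    ext v
    show g (v : V) = (A v : V₁)
    have h3 := hgx v 0
    rw [Submodule.coe_zero, add_zero] at h3
    have h4 : A₂ 0 = 0 := A₂l.map_zero
    rw [h3, h4, Submodule.coe_zero, add_zero]

/-- **the centraliser of an isometry**, linear type -/
theorem card_cent_linear (B : V →ₛₗ[τ] V →ₗ[F] F) {ε : F}
    (hs : ∀ u v, B v u = ε * τ (B u v)) (hnd : ∀ u, (∀ v, B u v = 0) → u = 0) (w : V ≃ₗ[F] V)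
    (hw : ∀ u v, B (w u) (w v) = B u v) {p p' : F[X]} (hp : Irreducible p) (hc : IsCoprime p p')
    (hmin : aeval (w : V →ₗ[F] V) (p * p') = 0)
    (h1 : ∀ u v, aeval (w : V →ₗ[F] V) p u = 0 → aeval (w : V →ₗ[F] V) p v = 0 → B u v = 0)
    (h2 : ∀ u v, aeval (w : V →ₗ[F] V) p' u = 0 → aeval (w : V →ₗ[F] V) p' v = 0 → B u v = 0) :
    ∃ m : ℕ, finrank F V = 2 * p.natDegree * m ∧
      Nat.card {g : V ≃ₗ[F] V // (∀ u v, B (g u) (g v) = B u v) ∧ ∀ v, g (w v) = w (g v)} =
        glCard m (Fintype.card F ^ p.natDegree) := by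
  have hw1 : ∀ v ∈ LinearMap.ker (aeval (w : V →ₗ[F] V) p), w v ∈ LinearMap.ker (aeval (w : V →ₗ[F] V) p) := by
    intro v hv
    rw [LinearMap.mem_ker] at hv ⊢
    have h3 := comm_aeval (W := (w : V →ₗ[F] V)) (g := (w : V →ₗ[F] V)) (fun v => rfl) p v
    rw [hv, map_zero] at h3
    exact h3.symm
  have hw2 : ∀ v ∈ LinearMap.ker (aeval (w : V →ₗ[F] V) p'), w v ∈ LinearMap.ker (aeval (w : V →ₗ[F] V) p') := by
    intro v hv
    rw [LinearMap.mem_ker] at hv ⊢
    have h3 := comm_aeval (W := (w : V →ₗ[F] V)) (g := (w : V →ₗ[F] V)) (fun v => rfl) p' v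
    rw [hv, map_zero] at h3
    exact h3.symm
  have hcompl : IsCompl (LinearMap.ker (aeval (w : V →ₗ[F] V) p)) (LinearMap.ker (aeval (w : V →ₗ[F] V) p')) := by
    refine ⟨Polynomial.disjoint_ker_aeval_of_isCoprime _ hc, ?_⟩
    rw [codisjoint_iff, Polynomial.sup_ker_aeval_eq_ker_aeval_mul_of_coprime _ hc, hmin, LinearMap.ker_zero]
  obtain ⟨h3, h4⟩ := card_cent_pair B hs hnd w hw hcompl
    (fun u hu v hv => h1 u v (LinearMap.mem_ker.1 hu) (LinearMap.mem_ker.1 hv))
    (fun u hu v hv => h2 u v (LinearMap.mem_ker.1 hu) (LinearMap.mem_ker.1 hv)) hw1 hw2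
    (fun g hg v hv => by
      rw [LinearMap.mem_ker] at hv ⊢
      have h5 := comm_aeval (W := (w : V →ₗ[F] V)) (g := (g : V →ₗ[F] V)) hg p v
      rw [hv, map_zero] at h5
      exact h5.symm)
    (fun g hg v hv => by
      rw [LinearMap.mem_ker] at hv ⊢
      have h5 := comm_aeval (W := (w : V →ₗ[F] V)) (g := (g : V →ₗ[F] V)) hg p' v
      rw [hv, map_zero] at h5
      exact h5.symm)
  have hW : aeval ((w : V →ₗ[F] V).restrict hw1) p = 0 := by
    ext v
    rw [aeval_restrict hw1 p v, LinearMap.zero_apply, Submodule.coe_zero]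
    exact LinearMap.mem_ker.1 v.2
  obtain ⟨m, h5, h6⟩ := card_cent_irr hp hW
  refine ⟨m, ?_, ?_⟩
  · rw [h3, h5, mul_assoc]
  · rw [h4, h6]

/-- linear type with the dual polynomial -/
theorem card_cent_linear' (B : V →ₛₗ[τ] V →ₗ[F] F) {ε : F}
    (hs : ∀ u v, B v u = ε * τ (B u v)) (hnd : ∀ u, (∀ v, B u v = 0) → u = 0) (w : V ≃ₗ[F] V)
    (hw : ∀ u v, B (w u) (w v) = B u v) {p : F[X]} (hp : Irreducible p) (hc : IsCoprime p (p.map τ).reverse)
    (hmin : aeval (w : V →ₗ[F] V) (p * (p.map τ).reverse) = 0) :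
    ∃ m : ℕ, finrank F V = 2 * p.natDegree * m ∧
      Nat.card {g : V ≃ₗ[F] V // (∀ u v, B (g u) (g v) = B u v) ∧ ∀ v, g (w v) = w (g v)} =
        glCard m (Fintype.card F ^ p.natDegree) :=
  card_cent_linear B hs hnd w hw hp hc hmin (fun u v => isotropic_of_coprime hw hc u v)
    (fun u v => isotropic_of_coprime' hw hc u v)

end Main

end Cfsg.Agent.H326.CGU
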